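import Cfsg.Agent.H169.RM.ChkF
import Cfsg.Agent.H971.RV.Lie

/-!
# S3849: brackets of root vectors, elements fixing all root vectors (helper169)
-/

set_option autoImplicit false
set_option linter.unusedSectionVars false

namespace Cfsg.Agent.H169.RM

open CoxeterSystem Cfsg Cfsg.Lie Cfsg.Lie.ChevalleyDatum
open Cfsg.Agent.ChevalleyStructure Cfsg.Agent.ChevalleyStructure.Elts Cfsg.Agent.ChevalleyStructure.CoxeterGeom
  Cfsg.Agent.ChevalleyStructure.CoxeterGeomTypes Cfsg.Agent.ChevalleyStructure.NPerm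
  Cfsg.Agent.ChevalleyStructure.RootVec Cfsg.Agent.ChevalleyStructure.RootVecTab
open Cfsg.Agent.ChevalleyStructure.LieAbs Cfsg.Agent.ChevalleyStructure.Ring Cfsg.Agent.ChevalleyStructure.JacMain
  Cfsg.Agent.ChevalleyStructure.LieAut Cfsg.Agent.ChevalleyStructure.JacAll
open Cfsg.Agent.Tits.Roots Cfsg.Agent.Tits.Core Cfsg.Agent.Nodes Cfsg.Agent.Nodes.Reps Cfsg.Agent.Nodes.BNOf
  Cfsg.Agent.Nodes.RGDChev
open Cfsg.Agent.H167.EX Cfsg.Agent.H512.LinFour.IdealF Cfsg.Agent.H971.RV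
open Module Matrix

universe u v

variable {D : ChevalleyDatum} {k : Type u} [Field k]

theorem adR_entry (a : Fin D.nroots) (x y : D.Idx) :
    adR D k (Sum.inr a) x y = ((coefE D a.val 1 x y : ℤ) : k) := rfl

theorem br_ev (a : Fin D.nroots) (y x : D.Idx) :
    br D k (Pi.single (Sum.inr a) 1) (Pi.single y 1) x = ((coefE D a.val 1 x y : ℤ) : k) := by
  unfold br
  rw [adv_single_one, Matrix.mulVec_single_one]
  rfl

/-- **`[e_a, e_b] = ± e_c`** -/
theorem br_stp (hC : Checked D) {l a b c : ℕ} (ha : a < D.nroots) (hb : b < D.nroots)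
    (hc : c < D.nroots) (hinj : ∀ r < D.nroots, ∀ s < D.nroots, vec D l r = vec D l s → r = s) (h : Stp D a b c) :
    ∃ ε : k, ε ≠ 0 ∧ br D k (ev k ha) (ev k hb) = ε • ev k hc := by
  obtain ⟨hba, hbn, h⟩ := h
  obtain ⟨c0, hc0, hcc⟩ : ∃ c0 : ℤ, (c0 = 1 ∨ c0 = -1) ∧ D.chainCoeff a b c = [(1, c0)] := by
    rcases h with h | h
    · exact ⟨1, Or.inl rfl, h⟩
    · exact ⟨-1, Or.inr rfl, h⟩
  have hwt : ∀ {u : ℕ} {km : ℕ × ℤ}, km ∈ D.chainCoeff a b u → km.1 = 1 → u = c := by
    intro u km hkm h1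
    obtain ⟨hu, h2⟩ := TorusConj.chainCoeff_wt hC hkm
    obtain ⟨-, h3⟩ := TorusConj.chainCoeff_wt hC (r := a) (s := b) (u := c) (km := (1, c0)) (by rw [hcc]; simp)
    refine hinj u hu c hc ?_
    funext i
    rw [vec_apply, vec_apply, h2, h3, h1]
  refine ⟨(c0 : k), ?_, ?_⟩
  · rcases hc0 with rfl | rfl
    · simp
    · simp
  · funext x
    have h1 : br D k (ev k ha) (ev k hb) x = ((coefE D a 1 x (Sum.inr ⟨b, hb⟩) : ℤ) : k) :=
      br_ev ⟨a, ha⟩ (Sum.inr ⟨b, hb⟩) x
    rw [h1, coefE_entry D a 1 ha]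
    have e1 : ¬ ((⟨b, hb⟩ : Fin D.nroots).val = a) := hba
    have e2 : ¬ ((⟨b, hb⟩ : Fin D.nroots).val = D.negIdx.getD a 0) := hbn
    simp only [e1, e2, if_false]
    rcases x with i | u
    · simp [ev]
    · simp only [one_ne_zero, false_and, if_false, zero_add]
      by_cases hu : u.val = c
      · have hu' : u = ⟨c, hc⟩ := Fin.ext hu
        subst hu'
        rw [hcc]
        simp [ev]
      · have hz : ((D.chainCoeff a b u.val).map fun km : ℕ × ℤ => if km.1 = 1 then km.2 else 0).sum = 0 := by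
          apply List.sum_eq_zero
          intro z hz
          obtain ⟨km, hkm, rfl⟩ := List.mem_map.1 hz
          rw [if_neg]
          intro h1
          exact hu (hwt hkm h1)
        rw [hz]
        have hne : (Sum.inr u : D.Idx) ≠ Sum.inr ⟨c, hc⟩ := by
          intro h
          exact hu (congrArg Fin.val (Sum.inr_injective h))
        simp only [ev, Pi.smul_apply, smul_eq_mul, Pi.single_eq_of_ne hne, mul_zero, Int.cast_zero]

/-- `[e_i, e_{-i}] = h_i` for the simple roots -/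
theorem br_neg (L : Lac D) {i : ℕ} (hi : i < D.rank) (hne : D.neg (D.simple i) ≠ D.simple i)
    (hn : D.neg (D.simple i) < D.nroots) :
    br D k (ev k (L.sim i hi).1) (ev k hn) = Pi.single (Sum.inl ⟨i, hi⟩) 1 := by
  funext x
  have h1 : br D k (ev k (L.sim i hi).1) (ev k hn) x = ((coefE D (D.simple i) 1 x (Sum.inr ⟨_, hn⟩) : ℤ) : k) :=
    br_ev ⟨_, (L.sim i hi).1⟩ (Sum.inr ⟨_, hn⟩) x
  rw [h1, coefE_entry D _ 1 (L.sim i hi).1]
  have e1 : ¬ ((⟨D.neg (D.simple i), hn⟩ : Fin D.nroots).val = D.simple i) := hne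
  have e2 : ((⟨D.neg (D.simple i), hn⟩ : Fin D.nroots).val = D.negIdx.getD (D.simple i) 0) := rfl
  beta_reduce
  dsimp only
  rw [if_neg hne]
  have e3 : D.neg (D.simple i) = D.negIdx.getD (D.simple i) 0 := rfl
  rw [if_pos e3]
  rcases x with j | u
  · have h2 := (L.sim i hi).2 j.val j.2
    have h3 : (D.coroot.getD (D.simple i) #[]).getD j.val 0 = if j.val = i then (1 : ℤ) else 0 := h2
    dsimp only
    rw [if_pos rfl, h3]
    by_cases hj : j.val = i
    · have hj' : j = ⟨i, hi⟩ := Fin.ext hj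
      subst hj'
      rw [if_pos rfl, Pi.single_eq_same, Int.cast_one]
    · have hne' : (Sum.inl j : D.Idx) ≠ Sum.inl ⟨i, hi⟩ := by
        intro h
        exact hj (congrArg Fin.val (Sum.inl_injective h))
      rw [if_neg hj, Pi.single_eq_of_ne hne', Int.cast_zero]
  · have hne' : (Sum.inr u : D.Idx) ≠ Sum.inl ⟨i, hi⟩ := by simp
    rw [Pi.single_eq_of_ne hne']
    dsimp only
    split_ifs <;> first | (exfalso; omega) | exact Int.cast_zero | simp_all

/-- an element which fixes all root vectors is trivial -/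
theorem eq_one_of_fix (L : Lac D) (hne : ∀ r < D.nroots, D.neg r ≠ r ∧ D.neg r < D.nroots) {g : ↥(D.group k)}
    (h : ∀ d (hd : d < D.nroots), rho D k g (ev k hd) = ev k hd) : g = 1 := by
  have h1 : ∀ i : D.Idx, rho D k g (Pi.single i 1) = Pi.single i 1 := by
    rintro (i | d)
    · have h2 := br_neg (k := k) L i.2 (hne _ (L.sim i i.2).1).1 (hne _ (L.sim i i.2).1).2
      rw [← h2, rho_br L.inList, h, h]
    · exact h d d.2
  apply Subtype.ext
  apply Units.ext
  ext i j
  have h2 := congrFun (h1 j) i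
  rw [rho_apply, Matrix.mulVec_single_one] at h2
  rw [Subgroup.coe_one, Units.val_one, Matrix.one_apply, ← Matrix.col_apply (A := ((g : GL D.Idx k) : Matrix D.Idx D.Idx k)), h2,
    Pi.single_apply]

end Cfsg.Agent.H169.RM
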