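import Cfsg.Agent.H167.RV.ChkS

/-!
# S3849: the combinatorial condition of the JOINT EIG engine (helper169)

`Y` an elementary abelian `s`-group of toral elements, `e j b` the exponents of the roots on generators `y_j`. For a
hyperplane `B₀` of `Y` (a line `ψ` of exponent vectors) the roots trivial on `B₀` are those proportional to `ψ`. The
roots `d` which are not trivial on `B₀` are divided into classes by integral functionals `μ` which vanish on the
roots trivial on `B₀`; `d` is good if its class does not contain a full coset of the line of `ψ`. All root vectors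
must be good or brackets of two good root vectors.
-/

set_option autoImplicit false

namespace Cfsg.Agent.H169.RM

open Cfsg Cfsg.Lie Cfsg.Lie.ChevalleyDatum Cfsg.Agent.ChevalleyStructure Cfsg.Agent.Nodes.RGDChev

/-- `[e_a, e_b] = ± e_c` -/
def Stp (D : ChevalleyDatum) (a b c : ℕ) : Prop :=
  b ≠ a ∧ b ≠ D.neg a ∧ (D.chainCoeff a b c = [(1, 1)] ∨ D.chainCoeff a b c = [(1, -1)])

/-- the exponent vector of `b` is a multiple of `ψ` mod `s` -/
def OnL (s : ℕ) {m : ℕ} (e : Fin m → ℕ → ℤ) (ψ : Fin m → ℤ) (b : ℕ) : Prop :=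
  ∃ c : ℤ, ∀ j, (s : ℤ) ∣ e j b - c * ψ j

/-- the good roots with respect to the line `ψ` and the functionals `μ` -/
def Gd (D : ChevalleyDatum) (l s : ℕ) {m n : ℕ} (e : Fin m → ℕ → ℤ) (ψ : Fin m → ℤ) (μ : Fin n → Fin l → ℤ)
    (d : ℕ) : Prop :=
  d < D.nroots ∧ ¬ OnL s e ψ d ∧ ∃ c : ℤ, ∀ d' < D.nroots,
    (∀ i, ∑ j, μ i j * vec D l d' j = ∑ j, μ i j * vec D l d j) → ¬ ∀ j, (s : ℤ) ∣ e j d' - e j d - c * ψ j

/-- the condition of the JOINT EIG engine -/
structure ChkF (D : ChevalleyDatum) (l s : ℕ) {m : ℕ} (e : Fin m → ℕ → ℤ) : Prop where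
  line : ∀ ψ : Fin m → ℤ, (∃ j, ¬ (s : ℤ) ∣ ψ j) → ∃ (n : ℕ) (μ : Fin n → Fin l → ℤ),
    (∀ a < D.nroots, OnL s e ψ a → ∀ i, ∑ j, μ i j * vec D l a j = 0) ∧
    ∀ c < D.nroots, Gd D l s e ψ μ c ∨ ∃ a b, Gd D l s e ψ μ a ∧ Gd D l s e ψ μ b ∧ Stp D a b c

end Cfsg.Agent.H169.RM
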