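import Cfsg.Agent.H169.RM.ChkF

/-!
# S3849: a checker for `ChkF` (helper169)
-/

set_option autoImplicit false

namespace Cfsg.Agent.H169.RM

open Cfsg Cfsg.Lie Cfsg.Lie.ChevalleyDatum Cfsg.Agent.ChevalleyStructure Cfsg.Agent.Nodes.RGDChev
open Cfsg.Agent.H167.RV

/-- equality of lists -/
def eqL : List ℕ → List ℕ → Bool
  | [], [] => true
  | a :: x, b :: y => Nat.beq a b && eqL x y
  | _, _ => false

theorem eqL_iff {x y : List ℕ} : eqL x y = true ↔ x = y := by
  induction x generalizing y with
  | nil => cases y <;> simp [eqL]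
  | cons a x ih =>
    cases y with
    | nil => simp [eqL]
    | cons b y => simp [eqL, ih]

/-- the leading coefficient -/
def lead : List ℕ → ℕ
  | [] => 0
  | a :: x => match a with
    | 0 => lead x
    | n + 1 => n + 1

/-- `c ψ` mod `s` -/
def mulS (s c : ℕ) : List ℕ → List ℕ
  | [] => []
  | a :: x => (c * a) % s :: mulS s c x

/-- the code of `v + c ψ` mod `s` -/
def tgt (s c : ℕ) : List ℕ → List ℕ → ℕ
  | x :: v, y :: ψ => (x + c * y) % s + s * tgt s c v ψ
  | _, _ => 0

/-- the code of a vector -/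
def cod (s : ℕ) : List ℕ → ℕ
  | [] => 0
  | a :: x => a + s * cod s x

def onLb (s : ℕ) (v ψ : List ℕ) : Bool := (List.range s).any fun c => eqL v (mulS s c ψ)

/-- data of a line: direction, functional, codes of the roots, good roots -/
structure LD where
  ps : List ℕ
  mu : List ℤ
  off : ℤ
  mask : ℕ
  good : ℕ

/-- the label of a root -/
def LD.lab (L : LD) (x : List ℤ) : ℕ := (dotL L.mu x + L.off).toNat

/-- the check for a root -/
def okR (s S : ℕ) (L : LD) (b : ℕ) (x : List ℤ) (v : List ℕ) (dec : List (ℕ × ℕ)) : Bool :=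
  (decide (0 ≤ dotL L.mu x + L.off)) && (L.mask.testBit (cod s v + S * L.lab x)) &&
    (!(onLb s v L.ps) || decide (dotL L.mu x = 0)) &&
    (match L.good.testBit b with
      | true => !(onLb s v L.ps) && (List.range s).any fun c => !(L.mask.testBit (tgt s c v L.ps + S * L.lab x))
      | false => dec.any fun u => L.good.testBit u.1 && L.good.testBit u.2)

def okL (D : ChevalleyDatum) (l s m : ℕ) (E : List (List ℕ)) (Dec : List (List (ℕ × ℕ))) (L : LD) : Bool :=
  (List.range D.nroots).all fun b => okR s (s ^ m) L b (crd D l b) (E.getD b []) (Dec.getD b [])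

def chkE (D : ChevalleyDatum) (l s : ℕ) (N : List (List ℤ)) (E : List (List ℕ)) : Bool :=
  (List.range D.nroots).all fun b => eqL (E.getD b []) (N.map fun f => (dotL f (crd D l b) % s).toNat)

def stpB (D : ChevalleyDatum) (a b c : ℕ) : Bool :=
  !(Nat.beq b a) && !(Nat.beq b (D.neg a)) && (decide (D.chainCoeff a b c = [(1, 1)]) ||
    decide (D.chainCoeff a b c = [(1, -1)]))

def chkD (D : ChevalleyDatum) (Dec : List (List (ℕ × ℕ))) : Bool :=
  (List.range D.nroots).all fun c => (Dec.getD c []).all fun u =>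
    Nat.blt u.1 D.nroots && Nat.blt u.2 D.nroots && stpB D u.1 u.2 c

/-- all vectors of length `m` mod `s` -/
def vecs (s : ℕ) : ℕ → List (List ℕ)
  | 0 => [[]]
  | m + 1 => (List.range s).flatMap fun a => (vecs s m).map fun v => a :: v

def chkC (s m : ℕ) (P : List (List ℕ)) : Bool :=
  (vecs s m).all fun v => Nat.beq (lead v) 0 || P.any fun ψ => eqL v (mulS s (lead v) ψ)

/-! ### soundness -/

theorem mem_vecs {s m : ℕ} {v : List ℕ} (hl : v.length = m) (hv : ∀ a ∈ v, a < s) : v ∈ vecs s m := by
  induction m generalizing v with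
  | zero =>
    rw [List.length_eq_zero_iff] at hl
    rw [hl]
    exact List.mem_singleton.2 rfl
  | succ m ih =>
    cases v with
    | nil => simp at hl
    | cons a v =>
      rw [vecs, List.mem_flatMap]
      refine ⟨a, List.mem_range.2 (hv a List.mem_cons_self), List.mem_map.2 ⟨v, ih (by simpa using hl) fun b hb =>
        hv b (List.mem_cons_of_mem _ hb), rfl⟩⟩

theorem lead_zero {v : List ℕ} (h : lead v = 0) : ∀ a ∈ v, a = 0 := by
  induction v with
  | nil => simp
  | cons a v ih =>
    intro b hb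
    cases a with
    | zero =>
      rcases List.mem_cons.1 hb with rfl | hb
      · rfl
      · exact ih h b hb
    | succ n => exact absurd h (Nat.succ_ne_zero n)

theorem lead_lt {s : ℕ} (hs : 0 < s) {v : List ℕ} (hv : ∀ a ∈ v, a < s) : lead v < s := by
  induction v with
  | nil => exact hs
  | cons a v ih =>
    cases a with
    | zero => exact ih fun b hb => hv b (List.mem_cons_of_mem _ hb)
    | succ n => exact hv (n + 1) List.mem_cons_self

theorem mulS_eq (s c : ℕ) (x : List ℕ) : mulS s c x = x.map fun a => (c * a) % s := by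
  induction x with
  | nil => rfl
  | cons a x ih => rw [mulS, ih, List.map_cons]

theorem tgt_eq (s c : ℕ) {v ψ w : List ℕ} (h : ψ.length = v.length) (hw : w.length = v.length)
    (he : ∀ i, w.getD i 0 = (v.getD i 0 + c * ψ.getD i 0) % s ∨ v.length ≤ i) : cod s w = tgt s c v ψ := by
  induction v generalizing ψ w with
  | nil =>
    rw [List.length_nil, List.length_eq_zero_iff] at hw
    rw [hw]
    cases ψ <;> rfl
  | cons x v ih =>
    cases ψ with
    | nil => simp at h
    | cons y ψ =>
      cases w with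
      | nil => simp at hw
      | cons z w =>
        rw [cod, tgt, ih (by simpa using h) (by simpa using hw) fun i => ?_]
        · rcases he 0 with h0 | h0
          · have h1 : z = (x + c * y) % s := h0
            rw [h1]
          · simp at h0
        · rcases he (i + 1) with h1 | h1
          · left
            simpa using h1
          · right
            simpa using h1

section

variable {D : ChevalleyDatum} {l s m : ℕ}

/-- the residues -/
theorem res_eq {N : List (List ℤ)} {E : List (List ℕ)} (hs : 0 < s) (Nf : Fin m → Fin l → ℤ)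
    (hN : N = List.ofFn fun j => List.ofFn (Nf j)) (hE : chkE D l s N E = true) {b : ℕ} (hb : b < D.nroots) :
    (E.getD b []).length = m ∧ (∀ a ∈ E.getD b [], a < s) ∧
      ∀ j : Fin m, (s : ℤ) ∣ (∑ i, Nf j i * vec D l b i) - ((E.getD b []).getD j 0 : ℕ) := by
  have hs' : (0 : ℤ) < s := by exact_mod_cast hs
  have h1 := List.all_eq_true.1 hE b (List.mem_range.2 hb)
  rw [eqL_iff] at h1
  rw [h1, hN]
  refine ⟨by simp, ?_, fun j => ?_⟩
  · intro a ha
    obtain ⟨f, -, rfl⟩ := List.mem_map.1 ha
    have h2 := Int.emod_lt_of_pos (dotL f (crd D l b)) hs'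
    have h3 := Int.emod_nonneg (dotL f (crd D l b)) hs'.ne'
    omega
  · have h2 : (List.map (fun f => (dotL f (crd D l b) % s).toNat) (List.ofFn fun j => List.ofFn (Nf j))).getD j 0 =
        (dotL (List.ofFn (Nf j)) (crd D l b) % s).toNat := by
      rw [List.getD_eq_getElem _ _ (by simp), List.getElem_map, List.getElem_ofFn]
    rw [h2, crd_eq, dotL_eq, Int.toNat_of_nonneg (Int.emod_nonneg _ hs'.ne')]
    exact Int.dvd_self_sub_emod

theorem dotL_getD (μ : List ℤ) {n : ℕ} (x : Fin n → ℤ) : dotL μ (List.ofFn x) = ∑ i : Fin n, μ.getD i 0 * x i := by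
  induction n generalizing μ with
  | zero =>
    cases μ <;> simp [dotL]
  | succ n ih =>
    cases μ with
    | nil => simp [dotL]
    | cons a μ =>
      rw [List.ofFn_succ, Fin.sum_univ_succ, dotL, ih]
      simp

theorem chkF_of (hs : s.Prime) (Nf : Fin m → Fin l → ℤ) {N : List (List ℤ)} {E : List (List ℕ)}
    {Dec : List (List (ℕ × ℕ))} {P : List LD} (hN : N = List.ofFn fun j => List.ofFn (Nf j))
    (hE : chkE D l s N E = true) (hD : chkD D Dec = true) (hL : (P.all (okL D l s m E Dec)) = true)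
    (hC : chkC s m (P.map LD.ps) = true) : ChkF D l s (fun (j : Fin m) b => ∑ i, Nf j i * vec D l b i) := by
  have hs0 := hs.pos
  have hs' : (0 : ℤ) < s := by exact_mod_cast hs0
  have hres := fun {b : ℕ} (hb : b < D.nroots) => res_eq hs0 Nf hN hE hb
  constructor
  intro ψ hψ
  -- the residues of `ψ`
  set w : List ℕ := List.ofFn fun j => (ψ j % s).toNat with hw
  have hwl : w.length = m := by simp [hw]
  have hws : ∀ a ∈ w, a < s := by
    intro a ha
    rw [hw, List.mem_ofFn] at ha
    obtain ⟨j, rfl⟩ := ha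
    have h2 := Int.emod_lt_of_pos (ψ j) hs'
    have h3 := Int.emod_nonneg (ψ j) hs'.ne'
    omega
  have hwj : ∀ j : Fin m, (s : ℤ) ∣ ψ j - (w.getD j 0 : ℕ) := by
    intro j
    rw [hw, List.getD_eq_getElem _ _ (by simp), List.getElem_ofFn, Int.toNat_of_nonneg (Int.emod_nonneg _ hs'.ne')]
    exact Int.dvd_self_sub_emod
  have hwm := mem_vecs hwl hws
  have h1 := List.all_eq_true.1 hC w hwm
  rw [Bool.or_eq_true] at h1
  have hlead : lead w ≠ 0 := by
    intro h0
    obtain ⟨j, hj⟩ := hψ
    apply hj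
    have h2 := hwj j
    have h3 : w.getD j 0 = 0 := by
      rw [List.getD_eq_getElem _ _ (by rw [hwl]; exact j.2)]
      exact lead_zero h0 _ (List.getElem_mem _)
    rw [h3] at h2
    simpa using h2
  obtain ⟨L, hLP, hLw⟩ : ∃ L ∈ P, w = mulS s (lead w) L.ps := by
    rcases h1 with h1 | h1
    · exact absurd (Nat.eq_of_beq_eq_true h1) hlead
    · obtain ⟨x, hx, hxe⟩ := List.any_eq_true.1 h1
      obtain ⟨L, hL', rfl⟩ := List.mem_map.1 hx
      exact ⟨L, hL', eqL_iff.1 hxe⟩
  set u := lead w with hu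
  have hus : u < s := lead_lt hs0 hws
  have hpl : L.ps.length = m := by
    have := congrArg List.length hLw
    rw [mulS_eq, List.length_map, hwl] at this
    exact this.symm
  have hψu : ∀ j : Fin m, (s : ℤ) ∣ ψ j - u * (L.ps.getD j 0 : ℕ) := by
    intro j
    have h2 := hwj j
    have h3 : w.getD j 0 = (u * L.ps.getD j 0) % s := by
      conv_lhs => rw [hLw]
      rw [mulS_eq, List.getD_eq_getElem _ _ (by rw [List.length_map, hpl]; exact j.2), List.getElem_map,
        List.getD_eq_getElem _ _ (by rw [hpl]; exact j.2)]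
    rw [h3] at h2
    have h4 : (s : ℤ) ∣ ((u * L.ps.getD j 0 : ℕ) : ℤ) - ((u * L.ps.getD j 0 % s : ℕ) : ℤ) := by
      push_cast
      exact Int.dvd_self_sub_emod
    have h5 : ψ j - u * ((L.ps.getD j 0 : ℕ) : ℤ) = (ψ j - ((u * L.ps.getD j 0 % s : ℕ) : ℤ)) -
        (((u * L.ps.getD j 0 : ℕ) : ℤ) - ((u * L.ps.getD j 0 % s : ℕ) : ℤ)) := by
      push_cast; ring
    rw [h5]
    exact dvd_sub h2 h4
  -- the inverse of `u`
  obtain ⟨u', hu'⟩ : ∃ u' : ℤ, (s : ℤ) ∣ u * u' - 1 := by
    have h2 : IsCoprime (u : ℤ) (s : ℤ) := by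
      rw [Nat.isCoprime_iff_coprime]
      exact ((Nat.Prime.coprime_iff_not_dvd hs).2 fun h => hlead (Nat.eq_zero_of_dvd_of_lt h hus)).symm
    obtain ⟨a, b, hab⟩ := h2
    exact ⟨a, -b, by linear_combination hab⟩
  have hOK := List.all_eq_true.1 (List.all_eq_true.1 hL L hLP)
  have hR : ∀ b < D.nroots, okR s (s ^ m) L b (crd D l b) (E.getD b []) (Dec.getD b []) = true := fun b hb =>
    hOK b (List.mem_range.2 hb)
  -- `OnL` implies the Boolean
  have hOn : ∀ b < D.nroots, OnL s (fun (j : Fin m) b => ∑ i, Nf j i * vec D l b i) ψ b →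
      onLb s (E.getD b []) L.ps = true := by
    rintro b hb ⟨c, hc⟩
    obtain ⟨e1, e2, e3⟩ := hres hb
    have hc0 := Int.emod_nonneg (c * u) hs'.ne'
    have hc1 := Int.emod_lt_of_pos (c * u) hs'
    refine List.any_eq_true.2 ⟨((c * u) % s).toNat, List.mem_range.2 (by omega), eqL_iff.2 ?_⟩
    rw [mulS_eq]
    apply List.ext_getElem
    · rw [List.length_map, e1, hpl]
    · intro i h2 h3
      rw [List.getElem_map]
      have him : i < m := by rw [e1] at h2; exact h2
      have h4 := hc ⟨i, him⟩
      have h5 := e3 ⟨i, him⟩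
      have h6 := hψu ⟨i, him⟩
      rw [List.getD_eq_getElem _ _ h2] at h5
      rw [List.getD_eq_getElem _ _ (by rw [hpl]; exact him)] at h6
      have h7 : (E.getD b [])[i] < s := e2 _ (List.getElem_mem _)
      have h8 : (s : ℤ) ∣ c * u - (((c * u) % s).toNat : ℤ) := by
        rw [Int.toNat_of_nonneg hc0]
        exact Int.dvd_self_sub_emod
      have h9 : (s : ℤ) ∣ ((E.getD b [])[i] : ℤ) - ((((c * u) % s).toNat * L.ps[i]'(by rw [hpl]; exact him) : ℕ) : ℤ) := by
        obtain ⟨q1, hq1⟩ := h4
        obtain ⟨q2, hq2⟩ := h5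
        obtain ⟨q3, hq3⟩ := h6
        obtain ⟨q4, hq4⟩ := h8
        refine ⟨q1 - q2 + c * q3 + q4 * (L.ps[i]'(by rw [hpl]; exact him) : ℤ), ?_⟩
        push_cast
        linear_combination hq1 - hq2 + c * hq3 + (L.ps[i]'(by rw [hpl]; exact him) : ℤ) * hq4
      have h10 : (E.getD b [])[i] ≡ ((c * u) % s).toNat * L.ps[i]'(by rw [hpl]; exact him) [MOD s] := by
        rw [← Int.natCast_modEq_iff]
        exact ((Int.modEq_iff_dvd).2 h9).symm
      have h11 : (E.getD b [])[i] % s = _ := h10
      rwa [Nat.mod_eq_of_lt h7] at h11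
  -- good roots
  have hmu : ∀ b, dotL L.mu (crd D l b) = ∑ i : Fin l, L.mu.getD i 0 * vec D l b i := fun b => by
    rw [crd_eq, dotL_getD]
  have hGood : ∀ d < D.nroots, L.good.testBit d = true →
      Gd D l s (fun (j : Fin m) b => ∑ i, Nf j i * vec D l b i) ψ
        (fun (_ : Fin 1) (i : Fin l) => L.mu.getD i 0) d := by
    intro d hd h1
    have h2 := hR d hd
    unfold okR at h2
    rw [h1, Bool.and_eq_true] at h2
    have h2' : (!(onLb s (E.getD d []) L.ps) && (List.range s).any fun c =>
      !(L.mask.testBit (tgt s c (E.getD d []) L.ps + s ^ m * L.lab (crd D l d)))) = true := h2.2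
    rw [Bool.and_eq_true, Bool.not_eq_true'] at h2'
    obtain ⟨h3, h4⟩ := h2'
    obtain ⟨c, hc, hc'⟩ := List.any_eq_true.1 h4
    rw [List.mem_range] at hc
    rw [Bool.not_eq_true'] at hc'
    refine ⟨hd, fun h5 => ?_, c * u', fun d' hd' h5 h6 => ?_⟩
    · rw [hOn d hd h5] at h3
      exact absurd h3 (by decide)
    · obtain ⟨e1, e2, e3⟩ := hres hd
      obtain ⟨f1, f2, f3⟩ := hres hd'
      have h7 := h5 0
      have hlab : L.lab (crd D l d') = L.lab (crd D l d) := by
        unfold LD.lab
        rw [hmu, hmu, h7]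
      have hcod : cod s (E.getD d' []) = tgt s c (E.getD d []) L.ps := by
        refine tgt_eq s c (by rw [hpl, e1]) (by rw [f1, e1]) fun i => ?_
        by_cases him : i < m
        · left
          have g1 := e3 ⟨i, him⟩
          have g2 := f3 ⟨i, him⟩
          have g3 := h6 ⟨i, him⟩
          have g4 := hψu ⟨i, him⟩
          have g5 : (E.getD d' []).getD i 0 < s := by
            rw [List.getD_eq_getElem _ _ (by rw [f1]; exact him)]
            exact f2 _ (List.getElem_mem _)
          have g6 : (s : ℤ) ∣ (((E.getD d' []).getD i 0 : ℕ) : ℤ) -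
              (((E.getD d []).getD i 0 + c * L.ps.getD i 0 : ℕ) : ℤ) := by
            obtain ⟨q1, hq1⟩ := g1
            obtain ⟨q2, hq2⟩ := g2
            obtain ⟨q3, hq3⟩ := g3
            obtain ⟨q4, hq4⟩ := g4
            obtain ⟨q5, hq5⟩ := hu'
            refine ⟨q1 - q2 + q3 + c * u' * q4 + c * q5 * ((L.ps.getD i 0 : ℕ) : ℤ), ?_⟩
            push_cast
            linear_combination hq1 - hq2 + hq3 + c * u' * hq4 + c * ((L.ps.getD i 0 : ℕ) : ℤ) * hq5
          have g7 : (E.getD d' []).getD i 0 ≡ (E.getD d []).getD i 0 + c * L.ps.getD i 0 [MOD s] := by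
            rw [← Int.natCast_modEq_iff]
            exact (Int.ModEq.symm ((Int.modEq_iff_dvd).2 g6))
          have g8 : (E.getD d' []).getD i 0 % s = _ := g7
          rwa [Nat.mod_eq_of_lt g5] at g8
        · right
          rw [e1]; omega
      have h8 := hR d' hd'
      unfold okR at h8
      rw [Bool.and_eq_true, Bool.and_eq_true, Bool.and_eq_true] at h8
      have h9 := h8.1.1.2
      rw [hcod, hlab, hc'] at h9
      exact absurd h9 (by decide)
  refine ⟨1, fun (_ : Fin 1) (i : Fin l) => L.mu.getD i 0, fun a ha hon _ => ?_, fun c hc => ?_⟩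
  · have h2 := hR a ha
    unfold okR at h2
    rw [Bool.and_eq_true, Bool.and_eq_true, Bool.or_eq_true, hOn a ha hon] at h2
    rcases h2.1.2 with h3 | h3
    · exact absurd h3 (by decide)
    · rw [← hmu]
      exact of_decide_eq_true h3
  · by_cases hg : L.good.testBit c = true
    · exact Or.inl (hGood c hc hg)
    · right
      rw [Bool.not_eq_true] at hg
      have h2 := hR c hc
      unfold okR at h2
      rw [hg, Bool.and_eq_true] at h2
      have h3 : ((Dec.getD c []).any fun u => L.good.testBit u.1 && L.good.testBit u.2) = true := h2.2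
      obtain ⟨x, hx, hx'⟩ := List.any_eq_true.1 h3
      rw [Bool.and_eq_true] at hx'
      have h4 := List.all_eq_true.1 (List.all_eq_true.1 hD c (List.mem_range.2 hc)) x hx
      rw [Bool.and_eq_true, Bool.and_eq_true, Nat.blt_eq, Nat.blt_eq] at h4
      obtain ⟨⟨h5, h6⟩, h7⟩ := h4
      refine ⟨x.1, x.2, hGood _ h5 hx'.1, hGood _ h6 hx'.2, ?_⟩
      unfold stpB at h7
      rw [Bool.and_eq_true, Bool.and_eq_true, Bool.or_eq_true, Bool.not_eq_true', Bool.not_eq_true',
        decide_eq_true_iff, decide_eq_true_iff] at h7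
      obtain ⟨⟨h8, h9⟩, h10⟩ := h7
      exact ⟨Nat.ne_of_beq_eq_false h8, Nat.ne_of_beq_eq_false h9, h10⟩

end

end Cfsg.Agent.H169.RM
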