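import Cfsg.Agent.H169.RM.DIdx
import Cfsg.Agent.H795.NotAbRows
import Cfsg.Agent.H572.ExcD
import Cfsg.Agent.H565.CharCnt
import Cfsg.Agent.H630.ExcCent
import Cfsg.Agent.H129.TorusUntw

/-!
# S3849, `³D₄(q)`: frames and the lattice (helper169)
-/

set_option autoImplicit false
set_option linter.unusedSectionVars false

namespace Cfsg.Agent.H169.RM.DFour

open CoxeterSystem Cfsg Cfsg.Lie Cfsg.Lie.ChevalleyDatum
open Cfsg.Agent.ChevalleyStructure Cfsg.Agent.ChevalleyStructure.Elts Cfsg.Agent.ChevalleyStructure.CoxeterGeom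
  Cfsg.Agent.ChevalleyStructure.CoxeterGeomTypes Cfsg.Agent.ChevalleyStructure.NPerm
open Cfsg.Agent.Tits.Roots Cfsg.Agent.Tits.Core Cfsg.Agent.Nodes Cfsg.Agent.Nodes.Reps Cfsg.Agent.Nodes.BNOf
  Cfsg.Agent.Nodes.RGDChev Cfsg.Agent.Nodes.Bruhat
open Cfsg.Agent.KFacts.RgdField Cfsg.Agent.KFacts.RgdChevCoord Cfsg.Agent.BpExc.TorCent Cfsg.Agent.BpExc.TorChev
open Cfsg.Agent.GpExc.Field Cfsg.Agent.BpExc.Tow Cfsg.Agent.BpExc.TowChev Cfsg.Agent.BpExc.Fr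
  Cfsg.Agent.BpExc.LangFr Cfsg.Agent.H129.TorusChar Cfsg.Agent.H129.TorusMain Cfsg.Agent.H123.ExcZ
open Cfsg.Agent.BpExc Cfsg.Agent.H795.LangT Cfsg.Agent.H795.Core Cfsg.Agent.H795.NotAbT
open Cfsg.Agent.H572.ExcA Cfsg.Agent.H572.ExcB Cfsg.Agent.H572.ExcC Cfsg.Agent.H572.ExcD
open Cfsg.Agent.H565.CharCnt Cfsg.Agent.H129.TorusUntw
open Cfsg.Agent.H720.TwFr Cfsg.Agent.H795.NotAbRows
open Cfsg.Agent.H129.WData Cfsg.Agent.H795.NotAbCert Cfsg.Agent.H795.NotAbData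
open Subgroup

universe u v

/-! ### the lattice -/

/-- the triality -/
def sigM : Matrix (Fin 4) (Fin 4) ℤ := ![![0, 0, 1, 0], ![0, 1, 0, 0], ![0, 0, 0, 1], ![1, 0, 0, 0]]

theorem perm_eq (x : Fin 4 → ℤ) : permE rho4 x = Matrix.vecMul x sigM := by
  funext m
  exact apply_of_sr (f := (permE rho4).toAddMonoidHom) perm4_mat x m

theorem rep_eq {w : coxeterD4.Group} {U : Matrix (Fin 4) (Fin 4) ℤ} (h : IsMat hp4 w U) (x : Fin 4 → ℤ) :
    rep coxeterD4.toCoxeterSystem hp4.isCartan w x = Matrix.vecMul x U := by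
  funext m
  exact h.apply x m

theorem theta_eq {w : coxeterD4.Group} {U : Matrix (Fin 4) (Fin 4) ℤ} (h : IsMat hp4 w U) (x : Fin 4 → ℤ) :
    ((permE rho4).trans (repAut coxeterD4.toCoxeterSystem hp4.isCartan w)) x = Matrix.vecMul x (sigM * U) := by
  show rep coxeterD4.toCoxeterSystem hp4.isCartan w (permE rho4 x) = _
  rw [rep_eq h, perm_eq, Matrix.vecMul_vecMul]

theorem vec_id {Th : Matrix (Fin 4) (Fin 4) ℤ} {ε : ℤ} (h : Th * Th + ε • Th + 1 = 0) (x : Fin 4 → ℤ) :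
    Matrix.vecMul (Matrix.vecMul x Th) Th + ε • Matrix.vecMul x Th + x = 0 := by
  have h1 : Matrix.vecMul x (Th * Th + ε • Th + 1) = 0 := by rw [h, Matrix.vecMul_zero]
  rwa [Matrix.vecMul_add, Matrix.vecMul_add, ← Matrix.vecMul_vecMul, Matrix.vecMul_smul, Matrix.vecMul_one] at h1

theorem vec_id' {Th V : Matrix (Fin 4) (Fin 4) ℤ} {ε : ℤ} (h : (1 + V + V * V) * (Th * Th + ε • Th + 1) = 0)
    (x y : Fin 4 → ℤ) (hy : y = x + Matrix.vecMul x V + Matrix.vecMul (Matrix.vecMul x V) V) :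
    Matrix.vecMul (Matrix.vecMul y Th) Th + ε • Matrix.vecMul y Th + y = 0 := by
  have h0 : y = Matrix.vecMul x (1 + V + V * V) := by
    rw [hy, Matrix.vecMul_add, Matrix.vecMul_add, Matrix.vecMul_one, Matrix.vecMul_vecMul]
  have h1 : Matrix.vecMul y (Th * Th + ε • Th + 1) = 0 := by
    rw [h0, Matrix.vecMul_vecMul, h, Matrix.vecMul_zero]
  rwa [Matrix.vecMul_add, Matrix.vecMul_add, ← Matrix.vecMul_vecMul, Matrix.vecMul_smul, Matrix.vecMul_one] at h1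

theorem pow_of_id {k : Type u} [Field k] {φ : (Fin 4 → ℤ) → k} (hφ : IsMC φ) {θ : (Fin 4 → ℤ) → Fin 4 → ℤ} {Q : ℕ}
    (hθ : ∀ x, φ (θ x) = φ x ^ Q) {ε : ℤ} {y : Fin 4 → ℤ} (h : θ (θ y) + ε • θ y + y = 0) :
    φ y ^ ((Q : ℤ) ^ 2 + ε * Q + 1) = 1 := by
  have h1 := hφ.zero
  rw [← h, hφ.add, hφ.add, hφ.zsmul, hθ, hθ] at h1
  rw [zpow_add₀ (hφ.ne_zero y), zpow_add₀ (hφ.ne_zero y), zpow_one, ← h1, ← zpow_natCast (φ y) Q, ← zpow_mul,
    ← zpow_natCast (φ y ^ (Q : ℤ)) Q, ← zpow_mul, pow_two, mul_comm (Q : ℤ) ε]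
  

/-! ### the frames -/

section Frame

variable {K : Type u} [Field K] [Fintype K] {q : ℕ} {r n : ℕ} [Fact r.Prime] [CharP K r]
  [CharP (AlgebraicClosure K) r]

theorem exists_frm (hq : IsPrimePow q) (hK : Fintype.card K = q ^ 3) (hk : LocFin (AlgebraicClosure K)) (hn0 : 0 < n)
    (hn : q = r ^ n) (w : coxeterD4.Group) :
    ∃ (κ : ↥(twistedD4 K q) →* ↥(chevD4.group (AlgebraicClosure K)))
      (τ : MulAut ↥(chevD4.group (AlgebraicClosure K))),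
      Emb hp4 r n κ τ ((permE rho4).trans (repAut coxeterD4.toCoxeterSystem hp4.isCartan w)) ∧
      ∀ y, τ y = y → ∃ x, κ x = y := by
  have hset := H795.Tw.setup_four (algebraMap K (AlgebraicClosure K)) r (tw4_le hq hK) hk hn0 hn hK (p := 3)
  obtain ⟨κ, τ, z, hEm, hκ, hb⟩ := exists_emb (hp := hp4) hk hset.inj hset.e_pos hset.frob hset.fr hset.fix hset.fin w
  refine ⟨κ, τ, hEm, fun y hy => ?_⟩
  obtain ⟨x, hx⟩ := desc4 (algebraMap K (AlgebraicClosure K)) r (tw4_le hq hK) hk hn0 hn hK (hb y hy)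
  refine ⟨x, ?_⟩
  rw [hκ, hx]
  group

end Frame

/-! ### torsion of the torus -/

section Tors

variable {D : ChevalleyDatum} {l : ℕ} {M : CoxeterMatrix (Fin l)} {hp : IsType D l M}
  {k : Type u} [Field k] [IsAlgClosed k] {r e : ℕ} [Fact r.Prime] [CharP k r]
  {G : Type v} [Group G] {κ : G →* ↥(D.group k)} {τ : MulAut ↥(D.group k)}
  {θ : (Fin l → ℤ) ≃+ (Fin l → ℤ)}

/-- the elements of the torus with `x ^ s = 1` -/
def TE (κ : G →* ↥(D.group k)) (hinj : Function.Injective κ) (hp : IsType D l M) (s : ℕ) : Subgroup G where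
  carrier := {x | x ∈ TG κ ∧ x ^ s = 1}
  one_mem' := ⟨one_mem _, one_pow _⟩
  mul_mem' := by
    rintro a b ⟨ha, hi⟩ ⟨hb, hj⟩
    refine ⟨mul_mem ha hb, ?_⟩
    rw [(show Commute a b from TG_comm κ hinj hp ha hb).mul_pow, hi, hj, one_mul]
  inv_mem' := by
    rintro a ⟨ha, hi⟩
    exact ⟨inv_mem ha, by rw [inv_pow, hi, inv_one]⟩

theorem isPGroup_TE {hinj : Function.Injective κ} {s : ℕ} : IsPGroup s (TE κ hinj hp s) := fun x =>
  ⟨1, by rw [pow_one]; exact Subtype.ext x.2.2⟩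

/-- elements centralising the `s`-torsion -/
theorem mem_TG_of_comm (r' : ℕ) [Fact r'.Prime] [CharP k r'] [Finite G] (hk : LocFin k) {hinj : Function.Injective κ} {s : ℕ}
    (hroot : ∀ b < D.nroots, ∃ x ∈ TE κ hinj hp s, cX hp (κ x) (vec D l b) ≠ 1) {c : G}
    (hc : ∀ x ∈ TE κ hinj hp s, x * c = c * x) {m : ℕ} (hm0 : 0 < m) (hms : m.Coprime s) (hcm : c ^ m = 1) :
    c ∈ TG κ := by
  have hWf : Finite M.Group := finite_W hp (M.toCoxeterSystem)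
  have hN : NSys M (TT D k) (nc hp k) := nsys_of_locFin hp M.toCoxeterSystem hk r'
  refine H630.Exc.mem_TT_of_pow hp M.toCoxeterSystem hk r' hN (A := κ '' (TE κ hinj hp s : Set G))
    ((Set.toFinite _).image _) ?_ ?_ (r := s) ?_ hm0 hms ?_ (by rw [← map_pow, hcm, map_one])
  · rintro _ ⟨x, hx, rfl⟩
    exact hx.1
  · intro a ha
    obtain ⟨b, hb, rfl⟩ := (isRoot_iff hp M.toCoxeterSystem _).1 ha
    obtain ⟨x, hx, h1⟩ := hroot b hb
    exact ⟨κ x, ⟨x, hx, rfl⟩, h1⟩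
  · rintro _ ⟨x, hx, rfl⟩
    rw [← map_pow, hx.2, map_one]
  · rintro _ ⟨x, hx, rfl⟩
    rw [← map_mul, ← map_mul, hc x hx]

/-- the characters of the elements of the torus -/
theorem char_theta (h : Emb hp r e κ τ θ) {a : G} (ha : a ∈ TG κ) (x : Fin l → ℤ) :
    cX hp (κ a) (θ x) = cX hp (κ a) x ^ r ^ e := by
  have h1 := cX_sigma hp M.toCoxeterSystem h.frob h.fr ha x
  rwa [h.fix] at h1

/-- powers from the characters -/
theorem pow_eq_one_of_char (hinj : Function.Injective κ) {a : G} (ha : a ∈ TG κ) {N : ℕ}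
    (h : ∀ x, cX hp (κ a) x ^ N = 1) : a ^ N = 1 := by
  apply hinj
  have ha' : κ a ∈ TT D k := ha
  rw [map_pow, map_one]
  refine cX_inj hp (pow_mem ha' N) (one_mem _) fun i => ?_
  rw [cX_pow hp ha', cX_one, h]

/-- elements of the torsion from functionals -/
theorem exists_TE (h : Emb hp r e κ τ θ) {d : ℕ} {Bi : Fin l → Fin l → ℤ} (hB : InvC D l d Bi) (hd : d ≠ 0)
    (hmem : ∀ y, τ y = y → ∃ x, κ x = y) {s : ℕ} [NeZero s] {ζ : k} (hζ : IsPrimitiveRoot ζ s)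
    (c : (Fin l → ℤ) →+ ZMod s) (hc : ∀ x, c (θ x) = ((r ^ e : ℕ) : ZMod s) * c x) :
    ∃ x ∈ TE κ h.inj hp s, ∀ y, cX hp (κ x) y = ζ ^ (c y).val := by
  obtain ⟨t, ht, hct, htN, hτt⟩ := exists_tor_fix hp hB hd h.frob h.fr hζ c hc
  obtain ⟨x, rfl⟩ := hmem t hτt
  exact ⟨x, ⟨ht, h.inj (by rw [map_pow, htN, map_one])⟩, hct⟩

end Tors

end Cfsg.Agent.H169.RM.DFour
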