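import Cfsg.Agent.H565.NoMinTor
import Cfsg.Agent.H572.ExcC

/-!
# S3849, `³D₄(q)`: the automorphisms induced on a toral subgroup (helper169)

* `relIndex_dvd_W` : `B` toral, `R ≤ N(B)`: `|R : C_R(B)|` divides `|W|`.
-/

set_option autoImplicit false
set_option linter.unusedSectionVars false

namespace Cfsg.Agent.H169.RM.DFour

open CoxeterSystem Cfsg Cfsg.Lie Cfsg.Lie.ChevalleyDatum
open Cfsg.Agent.ChevalleyStructure Cfsg.Agent.ChevalleyStructure.Elts Cfsg.Agent.ChevalleyStructure.CoxeterGeom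
  Cfsg.Agent.ChevalleyStructure.CoxeterGeomTypes Cfsg.Agent.ChevalleyStructure.NPerm
open Cfsg.Agent.Tits.Roots Cfsg.Agent.Tits.Core Cfsg.Agent.Nodes Cfsg.Agent.Nodes.Reps Cfsg.Agent.Nodes.BNOf
  Cfsg.Agent.Nodes.RGDChev Cfsg.Agent.Nodes.Bruhat
open Cfsg.Agent.KFacts.RgdField Cfsg.Agent.KFacts.RgdChevCoord Cfsg.Agent.BpExc.TorCent Cfsg.Agent.BpExc.TorChev
open Cfsg.Agent.GpExc.Field Cfsg.Agent.BpExc.Tow Cfsg.Agent.BpExc.TowChev Cfsg.Agent.BpExc.Fr
  Cfsg.Agent.BpExc.LangFr Cfsg.Agent.H795.SetCent Cfsg.Agent.H795.SetTor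
open Cfsg.Agent.H572.ExcA
open Subgroup

universe u v

variable {D : ChevalleyDatum} {l : ℕ} {M : CoxeterMatrix (Fin l)} (hp : IsType D l M)
  {k : Type u} [Field k] [IsAlgClosed k] (hk : LocFin k) (r : ℕ) [Fact r.Prime] [CharP k r]

include hp hk r in
/-- **the automorphisms induced on a toral subgroup** -/
theorem relIndex_dvd_W {G : Type v} [Group G] [Finite G] {f : G →* ↥(D.group k)} (hf : Function.Injective f)
    {B R : Subgroup G} {g : ↥(D.group k)} (hg : ∀ x ∈ B, g * f x * g⁻¹ ∈ TT D k)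
    (hR : R ≤ normalizer (B : Set G)) : (centralizer (B : Set G)).relIndex R ∣ Nat.card M.Group := by
  classical
  have hWf := finite_W hp (M.toCoxeterSystem)
  have H := tow hp M.toCoxeterSystem hk r
  have C : Coords M.toCoxeterSystem hp.isCartan (TL (Tj hp (k := k))) (nc hp k) (XL (Xj hp)) (xc hp) (ch hp) := by
    rw [TL_eq hp hk, XL_eq hp hk]
    exact coordsL hp M.toCoxeterSystem hk r
  have hGt := GG_eq_top hp M.toCoxeterSystem hk
  -- the pairs
  let S' : Subgroup (M.Group × MulAut B) :=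
    { carrier := {x | ∃ n, RP hp hk r x.1 n ∧ ∀ b : B, n * (g * f b * g⁻¹) = (g * f (x.2 b : B) * g⁻¹) * n}
      one_mem' := ⟨1, RP.one hp hk r, fun b => by
        rw [one_mul, mul_one]; rfl⟩
      mul_mem' := by
        rintro ⟨v, α⟩ ⟨w, β⟩ ⟨m, hm, hmb⟩ ⟨n, hn, hnb⟩
        refine ⟨m * n, hm.mul hn, fun b => ?_⟩
        have h1 := hnb b
        have h2 := hmb (β b)
        show m * n * (g * f b * g⁻¹) = (g * f ((α * β) b : B) * g⁻¹) * (m * n)
        rw [MulAut.mul_apply, mul_assoc m n, h1, ← mul_assoc m, h2, mul_assoc _ m n]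
      inv_mem' := by
        rintro ⟨v, α⟩ ⟨m, hm, hmb⟩
        refine ⟨m⁻¹, hm.inv, fun b => ?_⟩
        have h1 := hmb (α⁻¹ b)
        have h2 : α (α⁻¹ b) = b := by rw [MulAut.apply_inv_self]
        rw [show (((v, α) : M.Group × MulAut B)).2 = α from rfl, h2] at h1
        show m⁻¹ * (g * f b * g⁻¹) = (g * f (α⁻¹ b : B) * g⁻¹) * m⁻¹
        rw [inv_mul_eq_iff_eq_mul, ← mul_assoc, h1, mul_inv_cancel_right] }
  have hS' : ∀ {x : M.Group × MulAut B}, x ∈ S' ↔
      ∃ n, RP hp hk r x.1 n ∧ ∀ b : B, n * (g * f b * g⁻¹) = (g * f (x.2 b : B) * g⁻¹) * n := Iff.rfl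
  -- the first projection
  have h1 : Nat.card S' ∣ Nat.card M.Group := by
    refine card_dvd_of_injective ((MonoidHom.fst M.Group (MulAut B)).comp S'.subtype) ?_
    rw [injective_iff_map_eq_one]
    rintro ⟨⟨w, α⟩, hx⟩ hw
    have hw1 : w = 1 := hw
    subst hw1
    obtain ⟨n, hn, hnb⟩ := hS'.1 hx
    have hnT := hn.mem_of_one
    have hα : α = 1 := by
      ext b
      have h2 := hnb b
      rw [TT_comm hp _ hnT _ (hg b b.2)] at h2
      have h3 := mul_right_cancel h2
      have h4 : f b = f (α b : B) := mul_left_cancel (mul_right_cancel h3)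
      exact (hf h4).symm
    subst hα
    rfl
  -- the second projection
  let φ : R →* MulAut B := B.normalizerMonoidHom.comp (inclusion hR)
  have h2 : φ.range ≤ S'.map (MonoidHom.snd M.Group (MulAut B)) := by
    rintro _ ⟨y, rfl⟩
    have hyB : ∀ b : B, (y : G) * b * (y : G)⁻¹ ∈ B := fun b => (mem_normalizer_iff.1 (hR y.2) b).1 b.2
    obtain ⟨m, -, w, n, hn', hnk, -⟩ := exists_formZ H C (ι := B) (s := fun b => g * f b * g⁻¹)
      (t := fun b => g * f (y * b * (y : G)⁻¹) * g⁻¹) (c := g * f y * g⁻¹) (fun b => by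
        rw [TL_eq hp hk]
        exact hg _ b.2) (fun b => by
        rw [TL_eq hp hk]
        exact hg _ (hyB b)) (by rw [hGt]; exact Subgroup.mem_top _) (fun b => by
        rw [map_mul, map_mul, map_inv]
        group)
    exact ⟨(w, φ y), hS'.2 ⟨n, hn', fun b => hnk b⟩, rfl⟩
  have h3 : Nat.card (S'.map (MonoidHom.snd M.Group (MulAut B))) ∣ Nat.card S' := card_map_dvd _ _
  have hker : φ.ker = (centralizer (B : Set G)).subgroupOf R := by
    ext y
    rw [MonoidHom.mem_ker, mem_subgroupOf, mem_centralizer_iff]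
    constructor
    · intro h b hb
      have h4 : ((φ y ⟨b, hb⟩ : B) : G) = y * b * (y : G)⁻¹ := rfl
      rw [h] at h4
      have h5 : b = y * b * (y : G)⁻¹ := h4
      exact (eq_mul_inv_iff_mul_eq.1 h5)
    · intro h
      ext b
      show (y : G) * b * (y : G)⁻¹ = b
      rw [← h b b.2, mul_inv_cancel_right]
  have h4 : (centralizer (B : Set G)).relIndex R = Nat.card φ.range := by
    rw [← index_ker, hker]
    rfl
  rw [h4]
  exact ((card_dvd_of_le h2).trans h3).trans h1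

end Cfsg.Agent.H169.RM.DFour
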